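import Mathlib
import Cfsg.Prelude
import Cfsg.Agent.Dk.Sol
import Cfsg.Agent.Hall.Hall
import Cfsg.Agent.S0802
import Cfsg.Agent.S0803

/-! Hall `{2,3}`-subgroups of `PSL₂(q)`. -/

set_option autoImplicit false

namespace Cfsg.Agent.Dk

open MulAction Matrix Subgroup LinearAlgebra.Projectivization Projectivization
open scoped MatrixGroups Pointwise
open H81 (pt0 pt1 ptz ptc)

section num

theorem fact_eq {n r a : ℕ} (hn : n ≠ 0) (hr : r.Prime) (h1 : r ^ a ∣ n) (h2 : ¬ r ^ (a + 1) ∣ n) :
    n.factorization r = a := by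
  apply le_antisymm
  · by_contra h
    apply h2
    exact (hr.pow_dvd_iff_le_factorization hn).2 (by omega)
  · exact (hr.pow_dvd_iff_le_factorization hn).1 h1

/-- the `{2,3}`-part -/
theorem part_eq {q i c a : ℕ} (hq : q ≠ 0) (hM : q ^ 2 - 1 ≠ 0) (h2q : ¬ 2 ∣ q) (h3q : ¬ 3 ∣ q)
    (h2i : ¬ 2 ∣ i) (h3i : ¬ 3 ∣ i) (hc : c = 2 ^ a * 3) (h : q * (q ^ 2 - 1) = c * i) :
    2 ^ (q ^ 2 - 1).factorization 2 * 3 ^ (q ^ 2 - 1).factorization 3 = c := by
  have c2 : Nat.Coprime 2 q := (Nat.Prime.coprime_iff_not_dvd Nat.prime_two).2 h2q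
  have c3 : Nat.Coprime 3 q := (Nat.Prime.coprime_iff_not_dvd Nat.prime_three).2 h3q
  have c2i : Nat.Coprime 2 i := (Nat.Prime.coprime_iff_not_dvd Nat.prime_two).2 h2i
  have c3i : Nat.Coprime 3 i := (Nat.Prime.coprime_iff_not_dvd Nat.prime_three).2 h3i
  have e2 : (q ^ 2 - 1).factorization 2 = a := by
    apply fact_eq hM Nat.prime_two
    · apply (Nat.Coprime.pow_left a c2).dvd_of_dvd_mul_left
      rw [h, hc, mul_assoc]; exact dvd_mul_right _ _
    · intro hd
      have h1 : 2 ^ (a + 1) ∣ 2 ^ a * (3 * i) := by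
        rw [← mul_assoc, ← hc, ← h]; exact Dvd.dvd.mul_left hd q
      rw [pow_succ] at h1
      have h3 := Nat.dvd_of_mul_dvd_mul_left (by positivity) h1
      exact h2i ((Nat.Coprime.dvd_of_dvd_mul_left (by norm_num) h3))
  have e3 : (q ^ 2 - 1).factorization 3 = 1 := by
    apply fact_eq hM Nat.prime_three
    · rw [pow_one]
      apply c3.dvd_of_dvd_mul_left
      rw [h, hc]
      exact Dvd.dvd.mul_right (dvd_mul_left 3 _) i
    · intro hd
      have h1 : 3 ^ (1 + 1) ∣ 3 * (2 ^ a * i) := by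
        have : 3 * (2 ^ a * i) = q * (q ^ 2 - 1) := by rw [h, hc]; ring
        rw [this]; exact Dvd.dvd.mul_left hd q
      rw [pow_succ, pow_one] at h1
      have h3 := Nat.dvd_of_mul_dvd_mul_left (by norm_num) h1
      have h4 : Nat.Coprime 3 (2 ^ a) := Nat.Coprime.pow_right a (by norm_num)
      exact h3i (h4.dvd_of_dvd_mul_left h3)
  rw [e2, e3, pow_one, hc]

theorem not_dvd_of_part {q i a : ℕ} (hM : q ^ 2 - 1 ≠ 0) (h2q : ¬ 2 ∣ q) (h3q : ¬ 3 ∣ q)
    (h : q * (q ^ 2 - 1) = 2 ^ a * 3 * i) (h2 : (q ^ 2 - 1).factorization 2 = a)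
    (h3 : (q ^ 2 - 1).factorization 3 = 1) : ¬ 2 ∣ i ∧ ¬ 3 ∣ i := by
  have c2 : Nat.Coprime 2 q := (Nat.Prime.coprime_iff_not_dvd Nat.prime_two).2 h2q
  have c3 : Nat.Coprime 3 q := (Nat.Prime.coprime_iff_not_dvd Nat.prime_three).2 h3q
  constructor
  · rintro ⟨j, rfl⟩
    have h4 : 2 ^ (a + 1) ∣ q ^ 2 - 1 := by
      apply (Nat.Coprime.pow_left (a + 1) c2).dvd_of_dvd_mul_left
      rw [h]; exact ⟨3 * j, by ring⟩
    have := (Nat.prime_two.pow_dvd_iff_le_factorization hM).1 h4
    omega
  · rintro ⟨j, rfl⟩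
    have h4 : 3 ^ (1 + 1) ∣ q ^ 2 - 1 := by
      apply (Nat.Coprime.pow_left (1 + 1) c3).dvd_of_dvd_mul_left
      rw [h]; exact ⟨2 ^ a * j, by ring⟩
    have := (Nat.prime_three.pow_dvd_iff_le_factorization hM).1 h4
    omega

theorem exps_eq {a b c : ℕ} (h : 2 ^ a * 3 ^ b = 2 ^ c * 3) : a = c ∧ b = 1 := by
  have h2 : Nat.Coprime (2 ^ a) 3 := Nat.Coprime.pow_left a (by norm_num)
  have h1 : (2 ^ a * 3 ^ b).factorization 2 = a := by
    apply fact_eq (by positivity) Nat.prime_two (dvd_mul_right _ _)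
    intro hd
    rw [pow_succ] at hd
    have := Nat.dvd_of_mul_dvd_mul_left (by positivity) hd
    have h3 := Nat.prime_two.dvd_of_dvd_pow this
    omega
  have h1' : (2 ^ c * 3).factorization 2 = c := by
    apply fact_eq (by positivity) Nat.prime_two (dvd_mul_right _ _)
    intro hd
    rw [pow_succ] at hd
    have := Nat.dvd_of_mul_dvd_mul_left (by positivity) hd
    omega
  have hac : a = c := by rw [← h1, h, h1']
  subst hac
  refine ⟨rfl, ?_⟩
  have h3 := Nat.eq_of_mul_eq_mul_left (show 0 < 2 ^ a by positivity) h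
  have h4 : 3 ^ b = 3 ^ 1 := by rw [h3]; rfl
  exact Nat.pow_right_injective (by norm_num) h4

/-- the Hall `{2,3}`-number of a number -/
theorem exists_split (m : ℕ) (hm : m ≠ 0) : ∃ c n : ℕ, m = c * n ∧ ¬ 2 ∣ n ∧ ¬ 3 ∣ n ∧
    c.Coprime n ∧ ∀ p : ℕ, p.Prime → p ∣ c → p = 2 ∨ p = 3 := by
  obtain ⟨a, n1, h1, h2⟩ := Nat.exists_eq_pow_mul_and_not_dvd hm 2 (by norm_num)
  have hn1 : n1 ≠ 0 := by rintro rfl; simp at h1
  obtain ⟨b, n2, h3, h4⟩ := Nat.exists_eq_pow_mul_and_not_dvd hn1 3 (by norm_num)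
  refine ⟨2 ^ a * 3 ^ b, n2, ?_, ?_, h3, ?_, ?_⟩
  · rw [h2, h4]; ring
  · intro h
    exact h1 (h4 ▸ Dvd.dvd.mul_left h _)
  · apply Nat.Coprime.mul_left
    · apply Nat.Coprime.pow_left
      rw [Nat.Prime.coprime_iff_not_dvd Nat.prime_two]
      intro h
      exact h1 (h4 ▸ Dvd.dvd.mul_left h _)
    · apply Nat.Coprime.pow_left
      rw [Nat.Prime.coprime_iff_not_dvd Nat.prime_three]
      exact h3
  · intro p hp hd
    rcases (hp.dvd_mul).1 hd with h | h
    · exact Or.inl ((Nat.prime_dvd_prime_iff_eq hp Nat.prime_two).1 (hp.dvd_of_dvd_pow h))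
    · exact Or.inr ((Nat.prime_dvd_prime_iff_eq hp Nat.prime_three).1 (hp.dvd_of_dvd_pow h))

end num

section hall

/-- a solvable subgroup with index prime to 6 contains a Hall `{2,3}`-subgroup -/
theorem hall_of_solv {G : Type*} [Group G] [Finite G] {D : Subgroup G}
    (hD : Group.IsSolvable D) (h2 : ¬ 2 ∣ D.index) (h3 : ¬ 3 ∣ D.index) :
    ∃ H : Subgroup G, Cfsg.IsPiHall ({2, 3} : Set ℕ) H := by
  obtain ⟨c, n, h4, h5, h6, h7, h8⟩ := exists_split (Nat.card D) Nat.card_pos.ne'
  obtain ⟨H, hH⟩ := Hall.hall_exists c n h4 h7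
  refine ⟨H.map D.subtype, ?_, ?_⟩
  · intro p hp hd
    rw [Subgroup.card_map_of_injective D.subtype_injective, hH] at hd
    rcases h8 p hp hd with rfl | rfl <;> simp
  · intro p hp hmem hd
    have hc : 0 < c := by
      rcases Nat.eq_zero_or_pos c with h | h
      · rw [h, zero_mul] at h4
        exact absurd h4 Nat.card_pos.ne'
      · exact h
    have hidx : (H.map D.subtype).index = n * D.index := by
      have e1 := (H.map D.subtype).card_mul_index
      have e2 := D.card_mul_index
      rw [Subgroup.card_map_of_injective D.subtype_injective, hH] at e1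
      rw [h4] at e2
      apply Nat.eq_of_mul_eq_mul_left hc
      rw [e1, ← e2]; ring
    rw [hidx] at hd
    rcases (hp.dvd_mul).1 hd with h | h
    · rcases hmem with rfl | rfl
      · exact h5 h
      · exact h6 h
    · rcases hmem with rfl | rfl
      · exact h2 h
      · exact h3 h

variable {F : Type*} [Field F] [Finite F] {p : ℕ} [Fact p.Prime] [CharP F p]

attribute [local instance 10] pact sact

theorem not_dvd_card_of_ge (hp : 5 ≤ p) {r : ℕ} (hr : r.Prime) (hr4 : r ≤ 4) :
    ¬ r ∣ Nat.card F := by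
  intro hd
  have := Fintype.ofFinite F
  obtain ⟨n, -, hn⟩ := FiniteField.card F p
  rw [Nat.card_eq_fintype_card, hn] at hd
  have h3 := hr.dvd_of_dvd_pow hd
  have hp2 : r = p := (Nat.prime_dvd_prime_iff_eq hr Fact.out).1 h3
  omega

theorem hall_iff (hp : 5 ≤ p) :
    (∃ H : Subgroup PSL(2, F), Cfsg.IsPiHall ({2, 3} : Set ℕ) H) ↔
      (3 ∣ Nat.card F - 1 ∧ Nat.card F % 4 = 1) ∨ (3 ∣ Nat.card F + 1 ∧ Nat.card F % 4 = 3) ∨
        2 ^ (Nat.card F ^ 2 - 1).factorization 2 * 3 ^ (Nat.card F ^ 2 - 1).factorization 3 = 24 ∨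
        2 ^ (Nat.card F ^ 2 - 1).factorization 2 * 3 ^ (Nat.card F ^ 2 - 1).factorization 3 = 48 := by
  have hfin : Finite PSL(2, F) := finite_psl
  have hpp : p.Prime := Fact.out
  let K := AlgebraicClosure F
  have hcK : CharP K p := charP_of_injective_algebraMap (algebraMap F K).injective p
  have M := mobS (p := p) (F := F) (K := K)
  have h2q : ¬ 2 ∣ Nat.card F := not_dvd_card_of_ge hp Nat.prime_two (by norm_num)
  have h3q : ¬ 3 ∣ Nat.card F := not_dvd_card_of_ge hp Nat.prime_three (by norm_num)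
  have hodd : Odd (Nat.card F) := by
    rw [← Nat.not_even_iff_odd, even_iff_two_dvd]; exact h2q
  have h20 : (2 : F) ≠ 0 := by
    intro h
    have : (p : ℕ) ∣ 2 := (CharP.cast_eq_zero_iff F p 2).1 (by exact_mod_cast h)
    have := Nat.le_of_dvd (by norm_num) this
    omega
  have hcard := card_psl_odd (F := F) hodd
  have hq5 : 5 ≤ Nat.card F := by
    have h1 := Finite.one_lt_card (α := F)
    have h4 : Nat.card F ≠ 4 := by intro h; rw [h] at h2q; exact h2q (by norm_num)
    omega
  have hqq : Nat.card F ^ 2 - 1 = (Nat.card F - 1) * (Nat.card F + 1) := by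
    obtain ⟨k, hk⟩ : ∃ k, Nat.card F = k + 1 := ⟨Nat.card F - 1, by omega⟩
    rw [hk]
    have : (k + 1) ^ 2 = k * (k + 2) + 1 := by ring
    rw [this]
    simp
  have hM0 : Nat.card F ^ 2 - 1 ≠ 0 := by
    rw [hqq]; apply mul_ne_zero <;> omega
  have hcard2 : 2 * Nat.card PSL(2, F) = Nat.card F * (Nat.card F ^ 2 - 1) := by
    rw [hcard, hqq]
  generalize hq : Nat.card F = q at *
  constructor
  · rintro ⟨H, hH1, hH2⟩
    have hi := H.card_mul_index
    have hi2 : ¬ 2 ∣ H.index := hH2 2 Nat.prime_two (by simp)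
    have hi3 : ¬ 3 ∣ H.index := hH2 3 Nat.prime_three (by simp)
    have hkey : q * (q ^ 2 - 1) = 2 * (Nat.card H * H.index) := by rw [hi, hcard2]
    have hnp : ∀ r : ℕ, r.Prime → 5 ≤ r → ¬ r ∣ Nat.card H := by
      intro r hr hr5 hd
      rcases hH1 r hr hd with h | h
      · subst h; omega
      · rw [Set.mem_singleton_iff] at h; subst h; omega
    have h8 : 8 ∣ q ^ 2 - 1 := by
      rw [hqq]
      have : q % 2 = 1 := by omega
      obtain ⟨k, hk⟩ : ∃ k, q = 2 * k + 1 := ⟨q / 2, by omega⟩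
      rw [hk]
      have e : (2 * k + 1 - 1) * (2 * k + 1 + 1) = 4 * (k * (k + 1)) := by
        rw [Nat.add_sub_cancel]; ring
      rw [e]
      have := (Nat.even_mul_succ_self k).two_dvd
      obtain ⟨j, hj⟩ := this
      rw [hj]
      exact ⟨j, by ring⟩
    have h3M : 3 ∣ q ^ 2 - 1 := by
      rw [hqq, Nat.prime_three.dvd_mul]
      have : 3 ∣ q - 1 ∨ 3 ∣ q + 1 ∨ 3 ∣ q := by
        clear * - hq5
        omega
      rcases this with h | h | h
      · exact Or.inl h
      · exact Or.inr h
      · exact absurd h h3q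
    have h4H : 4 ∣ Nat.card H := by
      have h1 : 8 ∣ 2 * (Nat.card H * H.index) := by rw [← hkey]; exact Dvd.dvd.mul_left h8 q
      have h2 : 4 ∣ Nat.card H * H.index := by omega
      have h3 : Nat.Coprime 4 H.index := by
        have : Nat.Coprime (2 ^ 2) H.index :=
          Nat.Coprime.pow_left 2 ((Nat.Prime.coprime_iff_not_dvd Nat.prime_two).2 hi2)
        exact this
      exact h3.dvd_of_dvd_mul_right h2
    have h3H : 3 ∣ Nat.card H := by
      have h1 : 3 ∣ 2 * (Nat.card H * H.index) := by rw [← hkey]; exact Dvd.dvd.mul_left h3M q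
      have h2 : 3 ∣ Nat.card H * H.index := by omega
      have h3 : Nat.Coprime 3 H.index := (Nat.Prime.coprime_iff_not_dvd Nat.prime_three).2 hi3
      exact h3.dvd_of_dvd_mul_right h2
    have hHpos : 0 < Nat.card H := Nat.card_pos
    have hne : H ≠ ⊥ := by
      rintro rfl
      rw [Subgroup.card_bot] at h4H; omega
    rcases (ambS (F := F) (K := K)).list (p := p) hne with h | h | h | h | h | h
    · exfalso
      obtain ⟨z, hz⟩ := h
      obtain ⟨y, hzy, hle⟩ := M.fix_le_TS hz hne (by
        intro u hu huU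
        by_contra hu1
        have h1 : u ^ p = 1 := M.pow_of_mem_U huU
        have h2 : orderOf u = p := orderOf_eq_prime h1 hu1
        have h3 : orderOf u ∣ Nat.card H := H.orderOf_dvd_natCard hu
        rw [h2] at h3
        exact hnp p hpp hp h3)
      have hT : TS PSL(2, F) z y ≠ ⊥ := by
        intro h
        rw [h, le_bot_iff] at hle
        exact hne hle
      obtain ⟨-, hc⟩ := card_TS_pair (p := p) h20 hzy hT
      rw [hq] at hc
      have hd1 : Nat.card H ∣ Nat.card (TS PSL(2, F) z y) := Subgroup.card_dvd_of_le hle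
      obtain ⟨r, hr⟩ := hd1
      rcases hc with ⟨-, hc⟩ | ⟨-, hc⟩
      · -- `q - 1 = 2 |T|`
        have e1 : H.index = r * (q * (q + 1)) := by
          apply Nat.eq_of_mul_eq_mul_left hHpos
          apply Nat.eq_of_mul_eq_mul_left (show 0 < 2 by norm_num)
          rw [← hkey, hqq]
          have : q - 1 = 2 * (Nat.card H * r) := by rw [← hr]; omega
          rw [this]; ring
        apply hi2
        rw [e1]
        have : 2 ∣ q + 1 := by omega
        exact Dvd.dvd.mul_left (Dvd.dvd.mul_left this _) _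
      · have e1 : H.index = r * (q * (q - 1)) := by
          apply Nat.eq_of_mul_eq_mul_left hHpos
          apply Nat.eq_of_mul_eq_mul_left (show 0 < 2 by norm_num)
          rw [← hkey, hqq]
          have : q + 1 = 2 * (Nat.card H * r) := by rw [← hr]; omega
          rw [this]; ring
        apply hi2
        rw [e1]
        have : 2 ∣ q - 1 := by omega
        exact Dvd.dvd.mul_left (Dvd.dvd.mul_left this _) _
    · obtain ⟨z, -, hz⟩ := h
      obtain ⟨w, hw1, hw2, s, hs1, hs2⟩ := orbit_pair hz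
      have hle : H ≤ DS PSL(2, F) z w := by
        intro l hl
        have horb : ∀ v ∈ orbit H z, l • v ∈ orbit H z := by
          rintro _ ⟨h, rfl⟩
          exact ⟨⟨l, hl⟩ * h, mul_smul _ _ _⟩
        rw [hw2] at horb
        have h1 := horb z (by simp)
        have h2 := horb w (by simp)
        have h3 : l • z ≠ l • w := fun h => hw1 (smul_left_cancel l h).symm
        rcases h1 with h1 | h1 <;> rcases h2 with h2 | h2
        · exact absurd (h1.trans h2.symm) h3
        · exact Or.inl ⟨h1, h2⟩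
        · exact Or.inr ⟨h1, h2⟩
        · exact absurd (h1.trans h2.symm) h3
      have hcD := (M.DS_dihedral hw1.symm (s := (s : PSL(2, F))) hs1 hs2).2
      have hdD : Nat.card H ∣ 2 * Nat.card (TS PSL(2, F) z w) := by
        rw [← hcD]; exact Subgroup.card_dvd_of_le hle
      have hT : TS PSL(2, F) z w ≠ ⊥ := by
        intro h
        rw [h, Subgroup.card_bot] at hdD
        have := Nat.le_of_dvd (by norm_num) (h4H.trans hdD)
        omega
      obtain ⟨-, hc⟩ := card_TS_pair (p := p) h20 hw1.symm hT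
      rw [hq] at hc
      have h4' := h4H.trans hdD
      have h3' := h3H.trans hdD
      rcases hc with ⟨-, hc⟩ | ⟨-, hc⟩
      · left
        omega
      · right; left
        omega
    · right; right; left
      obtain ⟨-, h12, -⟩ := h
      rw [h12] at hkey
      exact part_eq (a := 3) (c := 24) (by omega) hM0 h2q h3q hi2 hi3 (by norm_num)
        (by rw [hkey]; ring)
    · right; right; right
      obtain ⟨-, h12, -⟩ := h
      rw [h12] at hkey
      exact part_eq (a := 4) (c := 48) (by omega) hM0 h2q h3q hi2 hi3 (by norm_num)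
        (by rw [hkey]; ring)
    · exfalso
      obtain ⟨-, h60, -⟩ := h
      exact hnp 5 (by norm_num) le_rfl (by rw [h60]; norm_num)
    · exfalso
      obtain ⟨z, -, h3, -⟩ := h
      have hUne : ((ambS (F := F) (K := K)).mob (p := p).subgroup H).U z ≠ ⊥ := by
        intro h
        rw [h, Subgroup.card_bot] at h3; omega
      obtain ⟨⟨u, hu⟩, hu1'⟩ := Subgroup.ne_bot_iff_exists_ne_one.1 hUne
      have hu1 : u ≠ 1 := fun h => hu1' (Subtype.ext h)
      have h1 : u ^ p = 1 := Mob.pow_of_mem_U _ hu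
      have h2 : orderOf u = p := orderOf_eq_prime h1 hu1
      have h3 : orderOf u ∣ Nat.card H := orderOf_dvd_natCard _
      rw [h2] at h3
      exact hnp p hpp hp h3
  · rintro (⟨h3, h4⟩ | ⟨h3, h4⟩ | h | h)
    · obtain ⟨z, w, hzw, hT, s, hs1, hs2⟩ := exists_rat_psl (F := F) K (p := p)
      rw [gcd_odd (hq.symm ▸ hodd), hq] at hT
      have hcD := (M.DS_dihedral hzw hs1 hs2).2
      rw [hT] at hcD
      have hidx : 2 * (DS PSL(2, F) z w).index = q * (q + 1) := by
        have e1 := (DS PSL(2, F) z w).card_mul_index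
        rw [hcD] at e1
        apply Nat.eq_of_mul_eq_mul_left (show 0 < q - 1 by omega)
        calc (q - 1) * (2 * (DS PSL(2, F) z w).index) =
            2 * ((q - 1) * (DS PSL(2, F) z w).index) := by ring
          _ = 2 * Nat.card PSL(2, F) := by rw [e1]
          _ = _ := by rw [hcard]; ring
      apply hall_of_solv (M.solvable_DS hzw)
      · intro hd
        have h1 : 2 * 2 ∣ q * (q + 1) := by rw [← hidx]; exact Nat.mul_dvd_mul_left 2 hd
        have h2 : Nat.Coprime 4 q := by
          have : Nat.Coprime (2 ^ 2) q :=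
            Nat.Coprime.pow_left 2 ((Nat.Prime.coprime_iff_not_dvd Nat.prime_two).2 h2q)
          exact this
        have h3 := h2.dvd_of_dvd_mul_left h1
        omega
      · intro hd
        have h1 : 3 ∣ q * (q + 1) := by rw [← hidx]; exact Dvd.dvd.mul_left hd 2
        rcases (Nat.prime_three.dvd_mul).1 h1 with h2 | h2
        · exact h3q h2
        · omega
    · obtain ⟨z, w, hzw, hT, s, hs1, hs2⟩ := exists_irr_psl (F := F) K (p := p)
      rw [gcd_odd (hq.symm ▸ hodd), hq] at hT
      have hcD := (M.DS_dihedral hzw hs1 hs2).2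
      rw [hT] at hcD
      have hidx : 2 * (DS PSL(2, F) z w).index = q * (q - 1) := by
        have e1 := (DS PSL(2, F) z w).card_mul_index
        rw [hcD] at e1
        apply Nat.eq_of_mul_eq_mul_left (show 0 < q + 1 by omega)
        calc (q + 1) * (2 * (DS PSL(2, F) z w).index) =
            2 * ((q + 1) * (DS PSL(2, F) z w).index) := by ring
          _ = 2 * Nat.card PSL(2, F) := by rw [e1]
          _ = _ := by rw [hcard]; ring
      apply hall_of_solv (M.solvable_DS hzw)
      · intro hd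
        have h1 : 2 * 2 ∣ q * (q - 1) := by rw [← hidx]; exact Nat.mul_dvd_mul_left 2 hd
        have h2 : Nat.Coprime 4 q := by
          have : Nat.Coprime (2 ^ 2) q :=
            Nat.Coprime.pow_left 2 ((Nat.Prime.coprime_iff_not_dvd Nat.prime_two).2 h2q)
          exact this
        have h3 := h2.dvd_of_dvd_mul_left h1
        omega
      · intro hd
        have h1 : 3 ∣ q * (q - 1) := by rw [← hidx]; exact Dvd.dvd.mul_left hd 2
        rcases (Nat.prime_three.dvd_mul).1 h1 with h2 | h2
        · exact h3q h2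
        · omega
    · have := Fintype.ofFinite F
      obtain ⟨n, -, hn⟩ := FiniteField.card F p
      obtain ⟨h1, h2⟩ := exps_eq (c := 3) (h.trans (by norm_num))
      obtain ⟨H, ⟨e⟩⟩ := (S0802.result (F := F) p n hn).2 (by
        rintro ⟨hp2, -⟩; omega)
      have hcH : Nat.card H = 12 := by
        exact card_A4 e
      have hi := H.card_mul_index
      rw [hcH] at hi
      obtain ⟨h5, h6⟩ := not_dvd_of_part (i := H.index) (a := 3) hM0 h2q h3q
        (by rw [← hcard2, ← hi]; ring) h1 h2
      refine ⟨H, ?_, ?_⟩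
      · intro r hr hd
        rw [hcH] at hd
        have : r ∣ 2 ^ 2 * 3 := hd
        rcases (hr.dvd_mul).1 this with h | h
        · left; exact (Nat.prime_dvd_prime_iff_eq hr Nat.prime_two).1 (hr.dvd_of_dvd_pow h)
        · right; exact (Nat.prime_dvd_prime_iff_eq hr Nat.prime_three).1 h
      · intro r hr hmem
        rcases hmem with rfl | rfl
        · exact h5
        · exact h6
    · have := Fintype.ofFinite F
      obtain ⟨h1, h2⟩ := exps_eq (c := 4) (h.trans (by norm_num))
      have h16 : 2 ^ 4 ∣ q ^ 2 - 1 := (Nat.prime_two.pow_dvd_iff_le_factorization hM0).2 h1.ge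
      obtain ⟨H, ⟨e⟩⟩ := (S0803.result (F := F) (q := q) (by
        rw [← Nat.card_eq_fintype_card]; exact hq)).2 (by
          have : 1 ≤ q ^ 2 := Nat.one_le_pow _ _ (by omega)
          obtain ⟨k, hk⟩ := h16
          omega)
      have hcH : Nat.card H = 24 := by
        rw [Nat.card_congr e.toEquiv, Nat.card_perm, Nat.card_eq_fintype_card, Fintype.card_fin]
        rfl
      have hi := H.card_mul_index
      rw [hcH] at hi
      obtain ⟨h5, h6⟩ := not_dvd_of_part (i := H.index) (a := 4) hM0 h2q h3q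
        (by rw [← hcard2, ← hi]; ring) h1 h2
      refine ⟨H, ?_, ?_⟩
      · intro r hr hd
        rw [hcH] at hd
        have : r ∣ 2 ^ 3 * 3 := hd
        rcases (hr.dvd_mul).1 this with h | h
        · left; exact (Nat.prime_dvd_prime_iff_eq hr Nat.prime_two).1 (hr.dvd_of_dvd_pow h)
        · right; exact (Nat.prime_dvd_prime_iff_eq hr Nat.prime_three).1 h
      · intro r hr hmem
        rcases hmem with rfl | rfl
        · exact h5
        · exact h6

end hall

end Cfsg.Agent.Dk
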