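import Mathlib
import Cfsg.Agent.Dk.SolThree2
import Cfsg.Agent.Dk.HallRow
import Cfsg.Agent.Dk.ExcMax
import Cfsg.Agent.Dk.Novel

/-! `PSL₂(13)`: normalizers are normal or maximal. -/

set_option autoImplicit false

namespace Cfsg.Agent.Dk

open MulAction Matrix Subgroup LinearAlgebra.Projectivization Projectivization
open scoped MatrixGroups Pointwise
open H81 (pt0 pt1 ptz ptc)

/-- every subgroup is normal or has a maximal normalizer -/
def Nm (G : Type*) [Group G] : Prop :=
  ∀ H : Subgroup G, ¬ H.Normal → IsCoatom (normalizer (H : Set G))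

section gen

variable {G G' : Type*} [Group G] [Group G']

theorem coatom_le_normalizer {H M : Subgroup G} (hH : ¬ H.Normal) (hM : IsCoatom M)
    (h : M ≤ normalizer (H : Set G)) : IsCoatom (normalizer (H : Set G)) := by
  rcases hM.le_iff.1 h with h1 | h1
  · exact absurd (Subgroup.normalizer_eq_top_iff.1 h1) hH
  · rw [h1]; exact hM

theorem coatom_comap {f : G →* G'} (hf : Function.Surjective f) {A : Subgroup G'}
    (hA : IsCoatom A) : IsCoatom (A.comap f) := by
  refine ⟨?_, ?_⟩
  · intro h
    apply hA.1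
    rw [← Subgroup.map_comap_eq_self_of_surjective hf A, h, ← MonoidHom.range_eq_map]
    exact MonoidHom.range_eq_top.2 hf
  · intro L hL
    have hker : f.ker ≤ L := by
      refine le_trans ?_ hL.le
      intro x hx
      rw [MonoidHom.mem_ker] at hx
      rw [Subgroup.mem_comap, hx]; exact A.one_mem
    have h1 : (L.map f).comap f = L := Subgroup.comap_map_eq_self hker
    have h2 : A < L.map f := by
      rw [← Subgroup.comap_lt_comap_of_surjective hf, h1]; exact hL
    rw [← h1, hA.2 _ h2, Subgroup.comap_top]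

theorem Nm.of_surj (f : G →* G') (hf : Function.Surjective f) (h : Nm G')
    (hN : ∀ H : Subgroup G, normalizer (H : Set G) =
      (normalizer ((H.map f : Subgroup G') : Set G')).comap f) : Nm G := by
  intro H hH
  rw [hN H]
  apply coatom_comap hf
  apply h
  intro hn
  apply hH
  rw [← Subgroup.normalizer_eq_top_iff, hN H, Subgroup.normalizer_eq_top_iff.2 hn,
    Subgroup.comap_top]

theorem Nm.congr (e : G ≃* G') (h : Nm G') : Nm G := by
  refine h.of_surj e.toMonoidHom e.surjective ?_
  intro H
  ext g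
  rw [Subgroup.mem_comap, Subgroup.mem_normalizer_iff, Subgroup.mem_normalizer_iff]
  constructor
  · intro h1 x
    obtain ⟨x, rfl⟩ := e.surjective x
    have h2 : e g * e x * (e g)⁻¹ = e (g * x * g⁻¹) := by rw [map_mul, map_mul, map_inv]
    show e x ∈ H.map e.toMonoidHom ↔ e g * e x * (e g)⁻¹ ∈ H.map e.toMonoidHom
    rw [h2]
    have h3 : ∀ y, e y ∈ H.map e.toMonoidHom ↔ y ∈ H := by
      intro y
      constructor
      · rintro ⟨z, hz, hzy⟩
        rw [← e.injective hzy]; exact hz
      · intro hy; exact ⟨y, hy, rfl⟩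
    rw [h3, h3]; exact h1 x
  · intro h1 x
    have h2 : e g * e x * (e g)⁻¹ = e (g * x * g⁻¹) := by rw [map_mul, map_mul, map_inv]
    have h3 : ∀ y, e y ∈ H.map e.toMonoidHom ↔ y ∈ H := by
      intro y
      constructor
      · rintro ⟨z, hz, hzy⟩
        rw [← e.injective hzy]; exact hz
      · intro hy; exact ⟨y, hy, rfl⟩
    have h4 := h1 (e x)
    have h4' : e x ∈ H.map e.toMonoidHom ↔ e g * e x * (e g)⁻¹ ∈ H.map e.toMonoidHom := h4
    rw [h2, h3, h3] at h4'
    exact h4'

/-- normalizers in a finite group: one inclusion is enough -/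
theorem mem_normalizer_of_le [Finite G] {H : Subgroup G} {g : G}
    (h : ∀ x ∈ H, g * x * g⁻¹ ∈ H) : g ∈ normalizer (H : Set G) := by
  rw [Subgroup.mem_normalizer_iff]
  intro x
  refine ⟨h x, ?_⟩
  intro hx
  have h1 : Function.Injective (fun x : H => (⟨g * x * g⁻¹, h x x.2⟩ : H)) := by
    intro a b hab
    have : g * a * g⁻¹ = g * b * g⁻¹ := congrArg Subtype.val hab
    exact Subtype.ext (mul_left_cancel (mul_right_cancel this))
  obtain ⟨y, hy⟩ := (Finite.injective_iff_surjective.1 h1) ⟨_, hx⟩
  have : g * y * g⁻¹ = g * x * g⁻¹ := congrArg Subtype.val hy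
  rw [← mul_left_cancel (mul_right_cancel this)]
  exact y.2

/-- central extension by an involution which is the only one -/
theorem Nm.of_two [Finite G] (f : G →* G') (hf : Function.Surjective f) (h : Nm G')
    (h2 : ∀ z ∈ f.ker, z * z = 1) (hu : ∀ x y : G, x * x = 1 → y * y = 1 → x ≠ 1 → y ≠ 1 → x = y)
    (hc : ∀ z ∈ f.ker, ∀ g, g * z = z * g) : Nm G := by
  refine h.of_surj f hf ?_
  intro H
  ext g
  constructor
  · intro hg
    rw [Subgroup.mem_normalizer_iff] at hg
    rw [Subgroup.mem_comap]
    have hfin : Finite G' := Finite.of_surjective f hf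
    apply mem_normalizer_of_le
    rintro _ ⟨x, hx, rfl⟩
    refine ⟨g * x * g⁻¹, (hg x).1 hx, ?_⟩
    rw [map_mul, map_mul, map_inv]
  · intro hg
    rw [Subgroup.mem_comap, Subgroup.mem_normalizer_iff] at hg
    apply mem_normalizer_of_le
    intro x hx
    obtain ⟨y, hy, hxy⟩ := (hg (f x)).1 ⟨x, hx, rfl⟩
    have h3 : y⁻¹ * (g * x * g⁻¹) ∈ f.ker := by
      rw [MonoidHom.mem_ker, map_mul, map_inv, hxy, map_mul, map_mul, map_inv, inv_mul_cancel]
    set z := y⁻¹ * (g * x * g⁻¹) with hz
    have h4 : g * x * g⁻¹ = y * z := by rw [hz, mul_inv_cancel_left]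
    rw [h4]
    by_cases hz1 : z = 1
    · rw [hz1, mul_one]; exact hy
    · have hzz := h2 z h3
      by_cases hev : Even (Nat.card H)
      · -- `z ∈ H`
        obtain ⟨t, ht⟩ := exists_prime_orderOf_dvd_card' (G := H) 2 (even_iff_two_dvd.1 hev)
        have h5 : (t : G) = z := by
          apply hu _ _ _ hzz _ hz1
          · have : t ^ 2 = 1 := by rw [← ht]; exact pow_orderOf_eq_one t
            rw [sq] at this
            exact congrArg Subtype.val this
          · intro h6
            have : t = 1 := Subtype.ext h6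
            rw [this, orderOf_one] at ht
            omega
        exact H.mul_mem hy (h5 ▸ t.2)
      · exfalso
        apply hz1
        rw [Nat.not_even_iff_odd] at hev
        have h6 : (y * z) ^ Nat.card H = 1 := by
          rw [← h4, conj_pow]
          have : x ^ Nat.card H = 1 := by
            have := pow_card_eq_one' (x := (⟨x, hx⟩ : H))
            exact congrArg Subtype.val this
          rw [this]; group
        have h7 : y ^ Nat.card H = 1 := by
          have := pow_card_eq_one' (x := (⟨y, hy⟩ : H))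
          exact congrArg Subtype.val this
        have h8 : Commute y z := hc z h3 y
        rw [h8.mul_pow, h7, one_mul] at h6
        obtain ⟨k, hk⟩ := hev
        rw [hk, pow_succ, pow_mul, sq, hzz, one_pow, one_mul] at h6
        exact h6

/-- product with an abelian group of coprime order -/
theorem Nm.prod {S : Type*} [CommGroup S] [Finite G] [Finite S] (h : Nm G)
    (hco : (Nat.card G).Coprime (Nat.card S)) : Nm (G × S) := by
  refine h.of_surj (MonoidHom.fst G S) (fun x => ⟨(x, 1), rfl⟩) ?_
  intro H
  -- powers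
  obtain ⟨n, hn1, hn2⟩ : ∃ n : ℕ, (∀ g : G, g ^ n = g) ∧ ∀ s : S, s ^ n = 1 := by
    obtain ⟨n, h1, h2⟩ := Nat.chineseRemainder hco 1 0
    refine ⟨n, ?_, ?_⟩
    · intro g
      have : g ^ n = g ^ 1 := by
        rw [pow_eq_pow_iff_modEq]
        exact h1.of_dvd (orderOf_dvd_natCard g)
      rw [this, pow_one]
    · intro s
      have : s ^ n = s ^ 0 := by
        rw [pow_eq_pow_iff_modEq]
        exact h2.of_dvd (orderOf_dvd_natCard s)
      rw [this, pow_zero]
  have key1 : ∀ a : G, ∀ b : S, (a, b) ∈ H → (a, 1) ∈ H := by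
    intro a b hab
    have := H.pow_mem hab n
    rwa [Prod.pow_mk, hn1, hn2] at this
  have key2 : ∀ a : G, ∀ b : S, (a, b) ∈ H → (1, b) ∈ H := by
    intro a b hab
    have := H.mul_mem (H.inv_mem (key1 a b hab)) hab
    have e : ((a, 1) : G × S)⁻¹ * (a, b) = (1, b) := by
      apply Prod.ext
      · exact inv_mul_cancel a
      · show (1 : S)⁻¹ * b = b
        rw [inv_one, one_mul]
    rwa [e] at this
  ext ⟨g, s⟩
  constructor
  · intro hg
    rw [Subgroup.mem_normalizer_iff] at hg
    rw [Subgroup.mem_comap]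
    apply mem_normalizer_of_le
    rintro _ ⟨⟨a, b⟩, hab, rfl⟩
    exact ⟨_, (hg (a, b)).1 hab, rfl⟩
  · intro hg
    rw [Subgroup.mem_comap, Subgroup.mem_normalizer_iff] at hg
    apply mem_normalizer_of_le
    rintro ⟨a, b⟩ hab
    have h1 := (hg a).1 ⟨(a, b), hab, rfl⟩
    obtain ⟨⟨a', b'⟩, h2, h3⟩ := h1
    have h3 : a' = g * a * g⁻¹ := h3
    have h4 : ((g, s) : G × S) * (a, b) * (g, s)⁻¹ = (g * a * g⁻¹, b) := by
      apply Prod.ext
      · rfl
      · show s * b * s⁻¹ = b
        rw [mul_comm s b, mul_inv_cancel_right]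
    rw [h4, ← h3]
    have := H.mul_mem (key1 a' b' h2) (key2 a b hab)
    have e : ((a', 1) : G × S) * (1, b) = (a', b) := by
      apply Prod.ext
      · exact mul_one a'
      · exact one_mul b
    rwa [e] at this

end gen

section a4

theorem A4_four : ∀ v : alternatingGroup (Fin 4), v ^ 4 = 1 → v * v = 1 := by decide +kernel

theorem A4_card_sq : (Finset.univ.filter fun v : alternatingGroup (Fin 4) => v * v = 1).card = 4 := by
  decide +kernel

/-- the subgroup of order four of the alternating group is normal -/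
theorem normal_of_four {G : Type*} [Group G] (e : G ≃* alternatingGroup (Fin 4)) (V : Subgroup G)
    (hV : Nat.card V = 4) : V.Normal := by
  classical
  have hfin : Finite G := Finite.of_equiv _ e.symm.toEquiv
  have := Fintype.ofFinite G
  have h1 : ∀ v ∈ V, v * v = 1 := by
    intro v hv
    have h2 : v ^ 4 = 1 := by
      have h3 := pow_card_eq_one' (x := (⟨v, hv⟩ : V))
      rw [hV] at h3
      exact congrArg Subtype.val h3
    have h3 := A4_four (e v) (by rw [← map_pow, h2, map_one])
    rw [← map_mul, ← map_one e, e.injective.eq_iff] at h3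
    exact h3
  have hmem : ∀ v : G, v ∈ V ↔ v * v = 1 := by
    have h4 : (V : Set G) ⊆ {v | v * v = 1} := h1
    have h5 : {v : G | v * v = 1}.ncard = 4 := by
      rw [← A4_card_sq, ← Set.ncard_coe_finset]
      have : ((Finset.univ.filter fun v : alternatingGroup (Fin 4) => v * v = 1 : Finset _) :
          Set (alternatingGroup (Fin 4))) = e '' {v : G | v * v = 1} := by
        ext v
        simp only [Finset.coe_filter, Finset.mem_univ, true_and, Set.mem_setOf_eq, Set.mem_image]
        constructor
        · intro h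
          refine ⟨e.symm v, ?_, e.apply_symm_apply v⟩
          rw [← map_mul, h, map_one]
        · rintro ⟨u, hu, rfl⟩
          rw [← map_mul, hu, map_one]
      rw [this, Set.ncard_image_of_injective _ e.injective]
    have h6 : (V : Set G).ncard = 4 := hV
    have h7 := Set.eq_of_subset_of_ncard_le h4 (by rw [h5, h6]) (Set.toFinite _)
    intro v
    rw [← SetLike.mem_coe, h7]; rfl
  refine ⟨fun v hv g => ?_⟩
  rw [hmem] at hv ⊢
  calc g * v * g⁻¹ * (g * v * g⁻¹) = g * (v * v) * g⁻¹ := by group
    _ = 1 := by rw [hv]; group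

end a4

section psl

variable {F : Type*} [Field F] [Finite F]

attribute [local instance 10] pact sact

theorem card_psl_13 (hF : Nat.card F = 13) : Nat.card PSL(2, F) = 1092 := by
  have h := card_psl_odd (F := F) (by rw [hF]; decide)
  rw [hF] at h; omega

theorem charP_13 (hF : Nat.card F = 13) : CharP F 13 := by
  obtain ⟨r, hr, hrF⟩ := exists_char (F := F)
  have h1 := char_dvd_card (F := F) hr
  rw [hF] at h1
  have h2 := (Nat.prime_dvd_prime_iff_eq hr (by norm_num)).1 h1
  rw [← h2]; exact hrF

theorem coatom_transport {L0 H : Subgroup PSL(2, F)} (hL0 : IsCoatom L0) {g : PGL(2, F)}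
    (hg : cj g (im L0) = im H) : IsCoatom H := by
  have himm : ∀ A B : Subgroup PSL(2, F), im A = im B → A = B := by
    intro A B h
    apply le_antisymm
    · rw [← im_mono, h]
    · rw [← im_mono, h]
  refine ⟨?_, ?_⟩
  · rintro rfl
    apply hL0.1
    apply himm
    have h1 : im (⊤ : Subgroup PSL(2, F)) = PSLr F := by
      apply le_antisymm (im_le _)
      rw [← toP_range]
      rintro _ ⟨x, rfl⟩
      exact ⟨x, Subgroup.mem_top x, rfl⟩
    rw [h1] at hg ⊢
    rw [← cj_inv_cj g (im L0), hg, cj_PSLr]
  · intro L hL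
    have h1 : cj g⁻¹ (im L) ≤ PSLr F := by
      rw [← cj_PSLr g⁻¹, cj_mono]
      exact im_le L
    have h2 : L0 ≤ (cj g⁻¹ (im L)).comap (toP F) := by
      rw [← im_mono, im_comap_of_le h1, ← cj_inv_cj g (im L0), hg, cj_mono, im_mono]
      exact hL.le
    rcases hL0.le_iff.1 h2 with h3 | h3
    · have h4 := im_comap_of_le h1
      rw [h3] at h4
      have h5 : im (⊤ : Subgroup PSL(2, F)) = PSLr F := by
        apply le_antisymm (im_le _)
        rw [← toP_range]
        rintro _ ⟨x, rfl⟩
        exact ⟨x, Subgroup.mem_top x, rfl⟩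
      apply himm
      rw [← cj_cj_inv g (im L), ← h4, h5, cj_PSLr]
    · exfalso
      have h4 := im_comap_of_le h1
      rw [h3] at h4
      apply hL.ne
      apply himm
      rw [← hg, h4, cj_cj_inv]

theorem nm_psl_13 (hF : Nat.card F = 13) : Nm PSL(2, F) := by
  intro H hH
  have hfin : Finite PSL(2, F) := finite_psl
  have hp13 : Fact (Nat.Prime 13) := ⟨by norm_num⟩
  have hc13 := charP_13 hF
  let K := AlgebraicClosure F
  have hcK : CharP K 13 := charP_of_injective_algebraMap (algebraMap F K).injective 13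
  have M := mobS (p := 13) (F := F) (K := K)
  have hFull := fullS (p := 13) (F := F) (K := K)
  have hcard := card_psl_13 hF
  have hodd : Odd (Nat.card F) := by rw [hF]; decide
  have h20 : (2 : F) ≠ 0 := two_ne_of_odd hodd
  -- dihedral coatoms
  have hcD : ∀ z w : ℙ K (Fin 2 → K), z ≠ w → TS PSL(2, F) z w ≠ ⊥ →
      IsCoatom (DS PSL(2, F) z w) ∧ Nat.card (DS PSL(2, F) z w) = 2 * Nat.card (TS PSL(2, F) z w) ∧
        (Nat.card (TS PSL(2, F) z w) = 6 ∨ Nat.card (TS PSL(2, F) z w) = 7) := by
    intro z w hzw hT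
    obtain ⟨⟨s, hs1, hs2⟩, hc⟩ := card_TS_pair (p := 13) h20 hzw hT
    rw [hF] at hc
    have h67 : Nat.card (TS PSL(2, F) z w) = 6 ∨ Nat.card (TS PSL(2, F) z w) = 7 := by omega
    refine ⟨?_, (M.DS_dihedral hzw hs1 hs2).2, h67⟩
    apply dih_coatom (p := 13) K hzw rfl (by omega) hs1 hs2
    · rw [hcard]; omega
    · intro h _; omega
    · intro h _; omega
    · intro q1 h3 h4
      rw [hF] at h4
      have : q1 = 3 := by
        have : q1 < 4 := by
          by_contra hcon
          have : 4 ^ 2 ≤ q1 ^ 2 := Nat.pow_le_pow_left (by omega) 2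
          omega
        omega
      omega
  -- the torus case
  have htor : ∀ z w : ℙ K (Fin 2 → K), z ≠ w → H ≤ TS PSL(2, F) z w → H ≠ ⊥ →
      IsCoatom (normalizer (H : Set PSL(2, F))) := by
    intro z w hzw hle hne
    have hT : TS PSL(2, F) z w ≠ ⊥ := by
      intro h
      rw [h, le_bot_iff] at hle
      exact hne hle
    refine coatom_le_normalizer hH (hcD z w hzw hT).1 ?_
    intro c hc
    apply mem_normalizer_of_le
    intro x hx
    have h1 := M.cj_of_DS hzw hle hc
    rw [← h1]
    exact ⟨x, hx, rfl⟩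
  have hne : H ≠ ⊥ := by
    rintro rfl
    exact hH inferInstance
  obtain ⟨L0, hL0, ⟨e0⟩⟩ := max_A4 (F := F) (p := 13) (by norm_num) hF (by norm_num) (by norm_num)
    (by norm_num)
  rcases (ambS (F := F) (K := K)).list (p := 13) hne with h | h | h | h | h | h
  · obtain ⟨z, hz⟩ := h
    by_cases hU : ∀ u ∈ H, u ∈ M.U z → u = 1
    · obtain ⟨y, hzy, hle⟩ := M.fix_le_TS hz hne hU
      exact htor z y hzy hle hne
    · push Not at hU
      obtain ⟨u, huH, huU, hu1⟩ := hU
      have hUne : M.U z ≠ ⊥ := by
        intro h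
        rw [h, Subgroup.mem_bot] at huU
        exact hu1 huU
      obtain ⟨g, hg⟩ := M.exists_smul_eq hFull.1 hUne
      have hzo : z ∈ orbit PSL(2, F) (pt0 K) := ⟨g, hg⟩
      have hcU : Nat.card (M.U z) = 13 := by
        rw [← hg, M.card_U_smul]
        exact card_US_pt0.trans hF
      have hUH : M.U z ≤ H := by
        have h1 : Subgroup.zpowers u = M.U z := by
          apply Subgroup.eq_of_le_of_card_ge
          · rw [Subgroup.zpowers_le]; exact huU
          · rw [hcU, Nat.card_zpowers]
            have h2 : orderOf u ∣ 13 := by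
              rw [← hcU]; exact Subgroup.orderOf_dvd_natCard _ huU
            rcases (Nat.dvd_prime (by norm_num)).1 h2 with h3 | h3
            · exact absurd (orderOf_eq_one_iff.1 h3) hu1
            · exact h3.ge
        rw [← h1, Subgroup.zpowers_le]; exact huH
      refine coatom_le_normalizer hH (hFull.coatom_stab_of_mem hzo) ?_
      intro c hc
      apply mem_normalizer_of_le
      intro x hx
      have h1 : c * x * c⁻¹ * x⁻¹ ∈ M.U z := by
        have h2 : ((⟨c, hc⟩ : stabilizer PSL(2, F) z) * ⟨x, hz x hx⟩ * ⟨c, hc⟩⁻¹ *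
          ⟨x, hz x hx⟩⁻¹ : stabilizer PSL(2, F) z).1 ∈ M.U z := by
          rw [← M.chi_spec, map_mul, map_mul, map_mul, map_inv, map_inv]
          rw [mul_inv_cancel_comm, mul_inv_cancel]
        exact h2
      have h3 := H.mul_mem (hUH h1) hx
      rwa [inv_mul_cancel_right] at h3
  · obtain ⟨z, -, hz⟩ := h
    obtain ⟨w, hw1, hw2, s, hs1, hs2⟩ := orbit_pair hz
    have hle : H ≤ DS PSL(2, F) z w := by
      intro l hl
      have horb : ∀ v ∈ orbit H z, l • v ∈ orbit H z := by
        rintro _ ⟨h, rfl⟩
        exact ⟨⟨l, hl⟩ * h, mul_smul _ _ _⟩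
      rw [hw2] at horb
      have h1 := horb z (by simp)
      have h2 := horb w (by simp)
      have h3 : l • z ≠ l • w := fun h => hw1 (smul_left_cancel l h).symm
      rcases h1 with h1 | h1 <;> rcases h2 with h2 | h2
      · exact absurd (h1.trans h2.symm) h3
      · exact Or.inl ⟨h1, h2⟩
      · exact Or.inr ⟨h1, h2⟩
      · exact absurd (h1.trans h2.symm) h3
    -- the intersection with the torus
    let H0 : Subgroup PSL(2, F) := H ⊓ TS PSL(2, F) z w
    have hs1' : (s : PSL(2, F)) • z = w := hs1
    have hs2' : (s : PSL(2, F)) • w = z := hs2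
    have hcH : Nat.card H = 2 * Nat.card H0 := by
      have h1 := card_orbit_mul (Γ := H) z
      rw [hz] at h1
      have h2 : Nat.card (stabilizer H z) = Nat.card H0 := by
        refine Nat.card_congr ⟨fun x => ⟨(x : PSL(2, F)), x.1.2, x.2, ?_⟩,
          fun x => ⟨⟨x, x.2.1⟩, x.2.2.1⟩, fun _ => rfl, fun _ => rfl⟩
        rcases hle x.1.2 with h3 | h3
        · exact h3.2
        · have h4 : (x : PSL(2, F)) • z = z := x.2
          rw [h3.1] at h4
          exact absurd h4 hw1
      rw [← h1, h2]
    by_cases hH0 : H0 = ⊥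
    · -- order two
      rw [hH0, Subgroup.card_bot] at hcH
      have hs0 : (s : PSL(2, F)) ≠ 1 := by
        intro h
        rw [h, one_smul] at hs1'
        exact hw1 hs1'.symm
      have hss : (s : PSL(2, F)) * s = 1 := M.swap_sq hw1.symm hs1' hs2'
      obtain ⟨a, b, hab, hT⟩ := inv_pair (p := 13) K h20 hs0 hss
      refine htor a b hab ?_ hne
      have hord : orderOf (s : PSL(2, F)) = 2 := orderOf_eq_prime (by rw [sq, hss]) hs0
      have h1 : Subgroup.zpowers (s : PSL(2, F)) = H := by
        apply Subgroup.eq_of_le_of_card_ge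
        · rw [Subgroup.zpowers_le]; exact s.2
        · rw [hcH, Nat.card_zpowers, hord]
      rw [← h1, Subgroup.zpowers_le]
      exact hT
    · have hT : TS PSL(2, F) z w ≠ ⊥ := by
        intro h
        apply hH0
        rw [eq_bot_iff, ← h]
        exact inf_le_right
      obtain ⟨hco, hcD2, h67⟩ := hcD z w hw1.symm hT
      have hd : Nat.card H0 ∣ Nat.card (TS PSL(2, F) z w) := Subgroup.card_dvd_of_le inf_le_right
      have hH01 : Nat.card H0 ≠ 1 := by
        intro h
        exact hH0 (Subgroup.card_eq_one.1 h)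
      have hcases : Nat.card (DS PSL(2, F) z w) ≤ 2 * Nat.card H ∨ Nat.card H = 4 := by
        rw [hcD2, hcH]
        rcases h67 with h6 | h6
        · rw [h6] at hd ⊢
          have h7 := Nat.le_of_dvd (by norm_num) hd
          interval_cases h8 : Nat.card H0 <;> omega
        · rw [h6] at hd ⊢
          rcases (Nat.dvd_prime (by norm_num)).1 hd with h7 | h7
          · exact absurd h7 hH01
          · rw [h7]; left; norm_num
      rcases hcases with h5 | h5
      · refine coatom_le_normalizer hH hco ?_
        intro c hc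
        have h6 : (H.subgroupOf (DS PSL(2, F) z w)).Normal := by
          have h7 : (H.subgroupOf (DS PSL(2, F) z w)).index ≤ 2 := by
            have h8 := Subgroup.card_mul_index (H.subgroupOf (DS PSL(2, F) z w))
            rw [Nat.card_congr (Subgroup.subgroupOfEquivOfLe hle).toEquiv] at h8
            rw [← h8, mul_comm 2] at h5
            exact Nat.le_of_mul_le_mul_left h5 Nat.card_pos
          have h8 : (H.subgroupOf (DS PSL(2, F) z w)).index ≠ 0 := Subgroup.FiniteIndex.index_ne_zero
          have h9 : (H.subgroupOf (DS PSL(2, F) z w)).index = 1 ∨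
            (H.subgroupOf (DS PSL(2, F) z w)).index = 2 := by omega
          rcases h9 with h9 | h9
          · rw [Subgroup.index_eq_one] at h9
            rw [h9]; infer_instance
          · exact Subgroup.normal_of_index_eq_two h9
        apply mem_normalizer_of_le
        intro x hx
        have h7 := h6.conj_mem ⟨x, hle hx⟩ hx ⟨c, hc⟩
        exact h7
      · -- a Klein four group
        have hp2 : Fact (Nat.Prime 2) := ⟨Nat.prime_two⟩
        obtain ⟨V, hV⟩ := Sylow.exists_subgroup_card_pow_prime (G := L0) 2 (n := 2) (by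
          rw [card_A4 e0]; norm_num)
        have hVn := normal_of_four e0 V hV
        have hVc : Nat.card (V.map L0.subtype) = 2 ^ 2 := by
          rw [Subgroup.card_map_of_injective L0.subtype_injective, hV]
        have h4092 : Nat.card PSL(2, F) = 4 * 273 := by rw [hcard]
        have hsyl : ∀ Q : Subgroup PSL(2, F), Nat.card Q = 4 → ∃ P : Sylow 2 PSL(2, F),
            (P : Subgroup PSL(2, F)) = Q := by
          intro Q hQ
          have h6 : IsPGroup 2 Q := IsPGroup.of_card (n := 2) hQ
          obtain ⟨P, hP⟩ := h6.exists_le_sylow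
          refine ⟨P, ?_⟩
          symm
          apply Subgroup.eq_of_le_of_card_ge hP
          rw [P.card_eq_multiplicity, hcard, hQ]
          have : (1092 : ℕ).factorization 2 = 2 := by
            apply fact_eq (by norm_num) Nat.prime_two (by norm_num) (by norm_num)
          rw [this]; norm_num
        obtain ⟨P1, hP1⟩ := hsyl H h5
        obtain ⟨P2, hP2⟩ := hsyl _ hVc
        obtain ⟨g, hg⟩ := MulAction.exists_smul_eq PSL(2, F) P2 P1
        have hg' : (V.map L0.subtype).map (MulAut.conj g).toMonoidHom = H := by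
          rw [← hP1, ← hg, ← hP2]; rfl
        have hcoat : IsCoatom (cj g L0) := by
          have h6 : cj g L0 = L0.comap (MulAut.conj g⁻¹).toMonoidHom := by
            ext x
            rw [mem_cj, Subgroup.mem_comap]
            show _ ↔ g⁻¹ * x * g⁻¹⁻¹ ∈ L0
            rw [inv_inv]
          rw [h6]
          exact coatom_comap (MulAut.conj g⁻¹).surjective hL0
        refine coatom_le_normalizer hH hcoat ?_
        intro c hc
        rw [mem_cj] at hc
        apply mem_normalizer_of_le
        intro x hx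
        rw [← hg'] at hx ⊢
        obtain ⟨_, ⟨v, hv, rfl⟩, rfl⟩ := hx
        refine ⟨g⁻¹ * c * g * v * (g⁻¹ * c * g)⁻¹, ?_, ?_⟩
        · exact ⟨_, hVn.conj_mem v hv ⟨_, hc⟩, rfl⟩
        · show g * (g⁻¹ * c * g * (v : PSL(2, F)) * (g⁻¹ * c * g)⁻¹) * g⁻¹ =
            c * (g * (v : PSL(2, F)) * g⁻¹) * c⁻¹
          group
  · obtain ⟨-, -, ⟨e⟩⟩ := h
    -- alternating group of degree four
    have hp2 : Fact (Nat.Prime 2) := ⟨Nat.prime_two⟩
    have hco : IsCoatom H := by
      obtain ⟨g, hg⟩ := A4_conj h20 ((imEquiv L0).symm.trans e0) ((imEquiv H).symm.trans e)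
      exact coatom_transport hL0 hg
    exact coatom_le_normalizer hH hco Subgroup.le_normalizer
  · exfalso
    obtain ⟨-, h24, -⟩ := h
    have := Subgroup.card_subgroup_dvd_card H
    rw [h24, hcard] at this
    omega
  · exfalso
    obtain ⟨-, h24, -⟩ := h
    have := Subgroup.card_subgroup_dvd_card H
    rw [h24, hcard] at this
    omega
  · exfalso
    obtain ⟨z, hFl, h3, g, K1, h4', h5, h6, h7⟩ := h
    have hK1 : K1 = ⊤ := by
      apply eq_top_of_card
      obtain ⟨m, hm⟩ := exists_pow_card K1
      rw [hF] at hm ⊢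
      have h9 : Nat.card K1 ∣ 13 := by
        rw [← hm]
        apply dvd_pow_self
        rintro rfl
        rw [pow_zero] at hm
        omega
      rcases (Nat.dvd_prime (by norm_num)).1 h9 with h12 | h12
      · rw [h7] at h12; omega
      · exact h12
    rw [hK1] at h5
    have hLtop : H = ⊤ := eq_top_of_im (PSLr_le_of_cj h5)
    rw [hLtop] at hH
    exact hH inferInstance

theorem sl_invol {F : Type*} [Field F] (h2 : (2 : F) ≠ 0) {x : SL(2, F)} (hx : x * x = 1)
    (hx1 : x ≠ 1) : x = -1 := by
  have h1 := sq_eq_trace x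
  have h3 : x.1 * x.1 = 1 := congrArg Subtype.val hx
  rw [h3] at h1
  have e00 := congrFun (congrFun h1 0) 0
  have e01 := congrFun (congrFun h1 0) 1
  have e10 := congrFun (congrFun h1 1) 0
  have e11 := congrFun (congrFun h1 1) 1
  simp only [Matrix.one_apply_eq, Matrix.sub_apply, Matrix.smul_apply, smul_eq_mul] at e00 e11
  simp only [Matrix.one_apply_ne (show (0 : Fin 2) ≠ 1 by decide),
    Matrix.one_apply_ne (show (1 : Fin 2) ≠ 0 by decide), Matrix.sub_apply, Matrix.smul_apply,
    smul_eq_mul] at e01 e10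
  have ht : x.1.trace ≠ 0 := by
    intro h
    rw [h] at e00
    apply h2
    linear_combination e00
  have hb : x.1 0 1 = 0 := by
    have : x.1.trace * x.1 0 1 = 0 := by linear_combination -e01
    exact (mul_eq_zero.1 this).resolve_left ht
  have hc : x.1 1 0 = 0 := by
    have : x.1.trace * x.1 1 0 = 0 := by linear_combination -e10
    exact (mul_eq_zero.1 this).resolve_left ht
  have had : x.1 0 0 = x.1 1 1 := by
    have : x.1.trace * (x.1 0 0 - x.1 1 1) = 0 := by linear_combination e11 - e00
    exact sub_eq_zero.1 ((mul_eq_zero.1 this).resolve_left ht)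
  have hd := x.2
  rw [Matrix.det_fin_two, hb, had] at hd
  have h4 : (x.1 1 1 - 1) * (x.1 1 1 + 1) = 0 := by linear_combination hd
  rcases mul_eq_zero.1 h4 with h5 | h5
  · exfalso
    apply hx1
    apply Subtype.ext
    ext i j
    fin_cases i <;> fin_cases j
    · show x.1 0 0 = 1
      rw [had]; linear_combination h5
    · exact hb
    · exact hc
    · show x.1 1 1 = 1
      linear_combination h5
  · apply Subtype.ext
    ext i j
    fin_cases i <;> fin_cases j
    · show x.1 0 0 = -1
      rw [had]; linear_combination h5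
    · show x.1 0 1 = -0
      rw [hb, neg_zero]
    · show x.1 1 0 = -0
      rw [hc, neg_zero]
    · show x.1 1 1 = -1
      linear_combination h5

theorem nm_sl_13 (hF : Nat.card F = 13) : Nm SL(2, F) := by
  have h20 : (2 : F) ≠ 0 := two_ne_of_odd (by rw [hF]; decide)
  have hfin : Finite SL(2, F) := inferInstance
  have hcen : ∀ z ∈ (QuotientGroup.mk' (Subgroup.center SL(2, F))).ker, ∀ g : SL(2, F),
      g * z = z * g := by
    intro z hz g
    rw [QuotientGroup.ker_mk'] at hz
    exact Subgroup.mem_center_iff.1 hz g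
  refine Nm.of_two (QuotientGroup.mk' (Subgroup.center SL(2, F)))
    (QuotientGroup.mk'_surjective _) (nm_psl_13 hF) ?_ ?_ hcen
  · intro z hz
    rw [QuotientGroup.ker_mk', Matrix.SpecialLinearGroup.mem_center_iff] at hz
    obtain ⟨r, hr, hr2⟩ := hz
    apply Subtype.ext
    show z.1 * z.1 = 1
    rw [← hr2, ← map_mul]
    rw [Fintype.card_fin, sq] at hr
    rw [hr, map_one]
  · intro x y hx hy hx1 hy1
    rw [sl_invol h20 hx hx1, sl_invol h20 hy hy1]

end psl

theorem nm_13 {K S : Type*} [Group K] [CommGroup S] [Finite K] [Finite S]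
    (hK : Nonempty (K ≃* PSL(2, ZMod 13)) ∨ Nonempty (K ≃* SL(2, ZMod 13)))
    (hKS : (Nat.card K).Coprime (Nat.card S)) : Nm (K × S) := by
  have hp13 : Fact (Nat.Prime 13) := ⟨by norm_num⟩
  have hF : Nat.card (ZMod 13) = 13 := by rw [Nat.card_eq_fintype_card, ZMod.card]
  apply Nm.prod _ hKS
  rcases hK with h | h
  · obtain ⟨e⟩ := h
    exact (nm_psl_13 hF).congr e
  · obtain ⟨e⟩ := h
    exact (nm_sl_13 hF).congr e

end Cfsg.Agent.Dk
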